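import Mathlib
import Cfsg.Agent.Lib.MinDeg2.Rep
import Cfsg.Agent.Lib.Chev.Faith
import Cfsg.Agent.Lib.Char.Integral

/-!
Irreducible representations of a group of rank two in which the fixed space of the maximal
unipotent subgroup is a line: a lower bound for the degree.
-/

set_option autoImplicit false
set_option linter.unusedSectionVars false

namespace H38.MD

open Finset Module

section

variable {Γ V : Type*} [Group Γ] [AddCommGroup V] [Module ℂ V] [FiniteDimensional ℂ V]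
  (ρ : Representation ℂ Γ V) {T : V →ₗ[ℂ] V} {v : V}

lemma map_av {A : Type*} [Fintype A] [Nonempty A] {x : A → Γ} (h : ∀ t, T (ρ (x t) v) = T v) :
    T (av ρ x (fun _ => 1) v) = T v := by
  simp [av_apply, h, ← Nat.cast_smul_eq_nsmul ℂ, smul_smul]

lemma map_avS {H : Subgroup Γ} [Finite H] (h : ∀ g ∈ H, T (ρ g v) = T v) : T (avS ρ H v) = T v :=
  letI := Fintype.ofFinite H
  map_av ρ fun t => h t t.2

end

variable {ι l : Type} [Fintype l] [DecidableEq l] {R : RS ι l} {K : Type*} [Field K] [Fintype K]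
  {G : Type*} [Group G] [Finite G] {E : Elts R K G} [Finite ι] {V : Type*} [AddCommGroup V]
  [Module ℂ V] [FiniteDimensional ℂ V] {ρ : Representation ℂ G V}

variable (E ρ) in
/-- The spherical function. -/
structure Sph (u : V) (ω : G → ℂ) : Prop where
  ne : u ≠ 0
  mem : u ∈ Fx ρ E.U
  eq : ∀ v ∈ Fx ρ E.U, ∃ c : ℂ, v = c • u
  avg : ∀ g, avS ρ E.U (ρ g u) = ω g • u

namespace Sph

variable {u : V} {ω : G → ℂ} (h : Sph E ρ u ω)
include h

lemma ext {a b : ℂ} (e : a • u = b • u) : a = b := smul_left_injective ℂ h.ne e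

lemma one : ω 1 = 1 := h.ext (by rw [← h.avg, map_one, Module.End.one_apply, avS_of_mem ρ h.mem, one_smul])

lemma app {b : G} (hb : b ∈ E.B) : ρ b u = ω b • u := by
  rw [← h.avg, avS_of_mem ρ (St_Fx ρ (fun a ha => by simpa using E.B_conj_mem_U (inv_mem hb) ha) u h.mem)]

lemma mul_B (g : G) {b : G} (hb : b ∈ E.B) : ω (g * b) = ω g * ω b :=
  h.ext (by rw [← h.avg, mul_app, h.app hb, map_smul, map_smul, h.avg, smul_smul, mul_comm])

lemma B_mul {b : G} (hb : b ∈ E.B) (g : G) : ω (b * g) = ω b * ω g :=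
  h.ext (by
    rw [← h.avg, mul_app, ← avS_comm ρ fun a => ⟨E.B_conj_mem_U hb, fun ha => by
      simpa [mul_assoc] using E.B_conj_mem_U (inv_mem hb) ha⟩, h.avg, map_smul, h.app hb, smul_smul,
      mul_comm])

lemma U_one {a : G} (ha : a ∈ E.U) : ω a = 1 :=
  h.ext (by rw [← h.app (E.U_le_B ha), (mem_Fx ρ).mp h.mem a ha, one_smul])

lemma inv_B {b : G} (hb : b ∈ E.B) : ω b * ω b⁻¹ = 1 := by
  rw [← h.B_mul hb, mul_inv_cancel, h.one]

lemma FB {b b' : G} (hb : b ∈ E.B) (hb' : b' ∈ E.B) (g : G) :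
    ω (b * g * b') * ω (b * g * b')⁻¹ = ω g * ω g⁻¹ := by
  rw [mul_inv_rev, mul_inv_rev, h.mul_B _ hb', h.B_mul hb, h.B_mul (inv_mem hb'),
    h.mul_B _ (inv_mem hb)]
  linear_combination ω g * ω g⁻¹ * ω b' * ω b'⁻¹ * h.inv_B hb + ω g * ω g⁻¹ * h.inv_B hb'

omit h in
lemma mem_U {i : l} {v : V} (h1 : v ∈ Fx ρ (E.UJ {i})) (h2 : ∀ t, ρ (E.x (R.sim i) t) v = v) :
    v ∈ Fx ρ E.U := (mem_Fx_iff ρ).mpr (E.XS_le.mpr fun r hr t => by
  by_cases e : r = R.sim i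
  · exact e ▸ h2 t
  · exact (mem_Fx ρ).mp h1 _ (E.UJ_singleton i ▸ E.x_mem_XS (S := {r | R.Pos r ∧ r ≠ R.sim i}) ⟨hr, e⟩ t))

omit h in
lemma norm_UJ {i : l} {g : G} (hg : g ∈ E.P {i}) (a : G) : a ∈ E.UJ {i} ↔ g * a * g⁻¹ ∈ E.UJ {i} :=
  ⟨E.P_conj_mem_UJ hg, fun ha => by simpa [mul_assoc] using E.P_conj_mem_UJ (inv_mem hg) ha⟩

lemma avX {i : l} {m : G} (hm : E.Rep m (R.s i)) :
    av ρ (E.x (R.sim i)) (fun _ => 1) (ρ m u) = ω m • u := by
  have a0 : ∀ g ∈ E.P {i}, g ∈ St ρ (Fx ρ (E.UJ {i})) := fun g hg =>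
    St_Fx ρ fun a ha => by simpa using E.P_conj_mem_UJ (inv_mem hg) ha
  have a1 := fun t => E.U_le_B.trans (E.B_le_P {i}) (E.x_mem_U (R.pos_sim i) t)
  rw [← h.avg, ← map_av ρ (x := E.x (R.sim i)) fun t => avS_app ρ (E.x_mem_U (R.pos_sim i) t) _,
    avS_of_mem]
  refine mem_U (av_mem ρ fun t => a0 _ (a1 t) _ (a0 _ (hm.mem_PS _ (R.s_mem_WJ rfl)) _
    (Fx_anti ρ (E.UJ_le_U _) h.mem))) fun t => ?_
  simpa using av_mem_Eg ρ (fam_ea (1 : AddChar K ℂ) (E.x_add (R.sim i)) 0) (ρ m u) t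

lemma step {n m : G} {w : Equiv.Perm ι} {i : l} (hn : E.Rep n w) (hm : E.Rep m (R.s i))
    (hp : R.Pos (w (R.sim i))) : ω (n * m) = ω n * ω m ∧ ω (m⁻¹ * n⁻¹) = ω m⁻¹ * ω n⁻¹ := by
  have a1 : ∀ t, n * E.x (R.sim i) t * n⁻¹ ∈ E.U := fun t =>
    hn.conj_mem_XS (S := {R.sim i}) (by rintro _ rfl; exact hp) (E.x_mem_XS (Set.mem_singleton _) t)
  refine ⟨h.ext ?_, h.ext ?_⟩
  · have := map_av ρ (x := E.x (R.sim i)) (T := avS ρ E.U ∘ₗ ρ n) (v := ρ m u) fun t => by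
      rw [LinearMap.comp_apply, LinearMap.comp_apply, ← conj_app, avS_app ρ (a1 t)]
    rw [h.avX hm, map_smul, LinearMap.comp_apply, LinearMap.comp_apply, h.avg, ← mul_app, h.avg] at this
    rw [← this, smul_smul, mul_comm]
  · have hP := hm.mem_PS {r | R.Pos r} (R.s_mem_WJ (J := {i}) rfl)
    have a2 : avS ρ (E.UJ {i}) (ρ n⁻¹ u) = ω n⁻¹ • u := by
      rw [← h.avg, ← map_avS ρ fun t ht => avS_app ρ (E.UJ_le_U {i} ht) _, avS_of_mem ρ
        (mem_U (avS_mem_Fx ρ _) fun t => ?_)]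
      rw [avS_comm ρ (norm_UJ (E.U_le_B.trans (E.B_le_P {i}) (E.x_mem_U (R.pos_sim i) t))),
        conj_app', inv_inv, (mem_Fx ρ).mp h.mem _ (a1 t)]
    rw [← h.avg, mul_app, ← map_avS ρ fun t ht => avS_app ρ (E.UJ_le_U {i} ht) _,
      ← avS_comm ρ (norm_UJ (inv_mem hP)), a2, map_smul, map_smul, h.avg, smul_smul, mul_comm]

lemma quad {i : l} {e : ι} (he : R.pair e (R.sim i) = 1) :
    ω (E.n (R.sim i) 1)⁻¹ = ω (E.n (R.sim i) 1) ∧
      (ω (E.n (R.sim i) 1) = 1 ∨ Fintype.card K * ω (E.n (R.sim i) 1) = -1) := by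
  classical
  have a1 : ∀ c ≠ 0, ω (E.n (R.sim i) c) = ω (E.n (R.sim i) 1) := fun c hc => by
    have b := E.H_le_B (E.h_mem_H e hc)
    have : E.n (R.sim i) c = E.h e c * E.n (R.sim i) 1 * (E.h e c)⁻¹ := by
      simp only [PreElts.n, ← conj_mul, E.hconj _ _ hc, R.pair_neg_right, he]; simp
    rw [this, h.mul_B _ (inv_mem b), h.B_mul b, mul_right_comm, h.inv_B b, one_mul]
  have a2 : ω (E.n (R.sim i) 1)⁻¹ = ω (E.n (R.sim i) 1) := by rw [← E.n_neg, a1 _ (by simp)]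
  refine ⟨a2, ?_⟩
  have a3 : ∀ t ≠ 0, ω (E.x (R.neg (R.sim i)) t) = ω (E.n (R.sim i) 1) := fun t ht => by
    have b := E.x_mem_U (R.pos_sim i) t⁻¹
    have := E.x_neg_root (R.sim i) (-t⁻¹)
    rw [inv_neg, inv_inv, neg_neg, neg_neg] at this
    rw [this, h.mul_B _ (E.U_le_B b), h.B_mul (E.U_le_B b), h.U_one b, a1 _ (by simpa)]; ring
  have a4 := congrArg (avS ρ E.U ∘ₗ ρ (E.n (R.sim i) 1)⁻¹) (h.avX (E.rep_n_sim i one_ne_zero))
  have a5 : ∀ t, (E.n (R.sim i) 1)⁻¹ * (E.x (R.sim i) t * E.n (R.sim i) 1) =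
      E.x (R.neg (R.sim i)) (-t) := fun t => by
    have := E.nconj_neg_self (R.sim i) one_ne_zero (-t)
    rw [one_pow, neg_one_mul, neg_neg] at this
    rw [← this]; group
  simp only [av_apply, map_smul, map_sum, LinearMap.comp_apply, ← mul_app, a5, h.avg, inv_one,
    one_smul, ← sum_smul, smul_smul, a2] at a4
  replace a4 := h.ext a4
  rw [← add_sum_erase _ _ (mem_univ 0), neg_zero, E.x_zero, h.one, sum_congr rfl fun t ht =>
    a3 _ (neg_ne_zero.mpr (ne_of_mem_erase ht)), sum_const, card_erase_of_mem (mem_univ _),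
    card_univ, nsmul_eq_mul, Nat.cast_pred Fintype.card_pos,
    inv_mul_eq_iff_eq_mul₀ (by simp)] at a4
  rw [← sub_eq_zero, ← add_eq_zero_iff_eq_neg, ← mul_eq_zero]
  linear_combination -a4

lemma FH {n n' : G} {w : Equiv.Perm ι} (hn : E.Rep n w) (hn' : E.Rep n' w) :
    ω n * ω n⁻¹ = ω n' * ω n'⁻¹ := by
  simpa using h.FB (E.H_le_B (Elts.Rep.mul_inv_mem_H E hn hn')) (one_mem _) n'

lemma F_step {w : Equiv.Perm ι} {i : l} (hw : w ∈ R.W) (hp : R.Pos (w (R.sim i))) {e : ι}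
    (he : R.pair e (R.sim i) = 1) {n : G} (hn : E.Rep n (w * R.s i)) :
    ∃ n', E.Rep n' w ∧ ω n * ω n⁻¹ = ω n' * ω n'⁻¹ * ω (E.n (R.sim i) 1) ^ 2 := by
  obtain ⟨n', a⟩ := E.exists_rep_of_mem_W hw
  have b := E.rep_n_sim i (one_ne_zero (α := K))
  refine ⟨n', a, ?_⟩
  rw [h.FH hn (a.mul b), mul_inv_rev, (h.step a b hp).1, (h.step a b hp).2, (h.quad he).1]; ring

lemma schur [ρ.IsIrreducible] [Fintype G] : finrank ℂ V * ∑ g, ω g * ω g⁻¹ = Fintype.card G := by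
  obtain ⟨s, hs⟩ := H8.exists_scalar_of_commute ρ (∑ g, ρ g * avS ρ E.U * ρ g⁻¹) fun k => by
    rw [mul_sum, sum_mul, ← Equiv.sum_comp (Equiv.mulLeft k)]
    refine sum_congr rfl fun g _ => ?_
    simp only [Equiv.coe_mulLeft, mul_inv_rev, map_mul, mul_assoc]
    rw [← map_mul ρ k⁻¹, inv_mul_cancel, map_one, mul_one]
  have a1 : LinearMap.IsProj (ℂ ∙ u) (avS ρ E.U) := ⟨fun v => by
    obtain ⟨c, e⟩ := h.eq _ (avS_mem_Fx ρ v)
    exact Submodule.mem_span_singleton.mpr ⟨c, e.symm⟩, fun v hv => by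
    obtain ⟨c, rfl⟩ := Submodule.mem_span_singleton.mp hv
    rw [map_smul, avS_of_mem ρ h.mem]⟩
  have a2 := congrArg (LinearMap.trace ℂ V) hs
  rw [map_sum, sum_congr rfl fun g _ => by
    rw [LinearMap.trace_mul_comm, ← mul_assoc, ← map_mul, inv_mul_cancel, map_one, one_mul, a1.trace,
      finrank_span_singleton h.ne]] at a2
  have a3 := congrArg (fun T : V →ₗ[ℂ] V => avS ρ E.U (T u)) hs
  simp only [LinearMap.coe_sum, Finset.sum_apply, Module.End.mul_apply, h.avg, map_smul, map_sum,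
    smul_smul, ← sum_smul, LinearMap.smul_apply, Module.End.one_apply, avS_of_mem ρ h.mem] at a3
  rw [sum_congr rfl fun g _ => mul_comm (ω g) _, h.ext a3]
  simpa [mul_comm] using a2.symm

end Sph

theorem hecke_bound (hF : E.Faith) (hG : E.Gp = ⊤) [ρ.IsIrreducible]
    (h1 : finrank ℂ (Fx ρ E.U) = 1) (nb : ∀ i, ∃ e, R.pair e (R.sim i) = 1)
    (h2 : ∀ i : l, ∃ j, ∀ k, k = i ∨ k = j) : finrank ℂ V = 1 ∨
      ∑ᶠ w : R.W, Nat.card K ^ R.ln w ≤ finrank ℂ V * (Nat.card R.W * Nat.card K) := by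
  classical
  obtain ⟨u, hu⟩ := finrank_pos_iff_exists_ne_zero.mp (h1 ▸ one_pos)
  have hu' : u.1 ≠ 0 := by simpa using hu
  choose ω hω using fun g => exists_smul h1.le u.2 hu' (avS_mem_Fx ρ (ρ g u))
  have h : Sph E ρ u ω := ⟨hu', u.2, fun v => exists_smul h1.le u.2 hu', hω⟩
  have := Fintype.ofFinite G
  have hs := h.schur
  have dec : ∀ g, ∃ b ∈ E.B, ∃ n w, E.Rep n w ∧ ∃ a ∈ E.XS (R.Inv w), g = b * n * a :=
    fun g => E.bruhat (hG ▸ trivial)
  have ub : ∀ {w a}, a ∈ E.XS (R.Inv w) → a ∈ E.B := fun ha =>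
    E.U_le_B (E.mem_XS_mono ha fun r hr => hr.1)
  by_cases e : ∀ i, ω (E.n (R.sim i) 1) = 1
  · left
    have a1 : ∀ w (hw : w ∈ R.W), ∀ n, E.Rep n w → ω n * ω n⁻¹ = 1 := fun w hw =>
      R.W_length_induction (P := fun w _ => ∀ n, E.Rep n w → ω n * ω n⁻¹ = 1)
        (fun n hn => h.inv_B (E.H_le_B hn.mem_H)) (fun w hw i hp ih n hn => by
          obtain ⟨n', b1, b2⟩ := h.F_step hw hp (nb i).choose_spec hn
          rw [b2, ih n' b1, e]; simp) hw
    rw [sum_congr rfl (g := fun _ => 1) fun g _ => by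
      obtain ⟨b, hb, n, w, hn, a, ha, rfl⟩ := dec g
      rw [h.FB hb (ub ha), a1 w hn.mem_W n hn]] at hs
    simpa using hs
  right
  obtain ⟨i, hi⟩ := not_forall.mp e
  obtain ⟨j, hj⟩ := h2 i
  set q := (Fintype.card K : ℝ)
  have hq : 1 ≤ q := Nat.one_le_cast.mpr Fintype.card_pos
  have a0 : ∀ k, ω (E.n (R.sim k) 1) ≠ 1 → q * ‖ω (E.n (R.sim k) 1)‖ = 1 := fun k hk => by
    simpa using congrArg norm ((h.quad (nb k).choose_spec).2.resolve_left hk)
  have a1 : ∀ w (hw : w ∈ R.W), ∀ n, E.Rep n w →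
      q ^ R.ln w * ‖ω n * ω n⁻¹‖ ≤ if R.Pos (w (R.sim j)) then 1 else q := fun w hw =>
    R.W_length_induction (P := fun w _ => ∀ n, E.Rep n w →
      q ^ R.ln w * ‖ω n * ω n⁻¹‖ ≤ if R.Pos (w (R.sim j)) then 1 else q)
      (fun n hn => by simp [h.inv_B (E.H_le_B hn.mem_H), R.ln_one, R.pos_sim]) (fun w hw k hp ih n hn => by
        obtain ⟨n', b1, b2⟩ := h.F_step hw hp (nb k).choose_spec hn
        have b3 := ih n' b1
        rw [b2, norm_mul, norm_pow, R.ln_mul_s_of_pos hw hp, pow_succ, mul_mul_mul_comm]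
        generalize q ^ R.ln w * ‖ω n' * ω n'⁻¹‖ = y at b3
        by_cases b4 : ω (E.n (R.sim k) 1) = 1
        · obtain rfl : k = j := (hj k).resolve_left (by rintro rfl; exact hi b4)
          rw [if_pos hp] at b3
          rw [if_neg (by rwa [Equiv.Perm.mul_apply, R.s_sim, R.W_neg hw, R.not_pos_neg_iff]), b4]
          simpa using mul_le_of_le_one_left (by positivity) b3
        · have b5 := a0 k b4
          have b6 := norm_nonneg (ω (E.n (R.sim k) 1))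
          have b7 : y ≤ q := b3.trans (by split_ifs; exacts [hq, le_rfl])
          rw [sq, ← mul_assoc q, b5, one_mul]
          exact ((mul_le_mul_of_nonneg_right b7 b6).trans b5.le).trans
            (by split_ifs; exacts [le_rfl, hq])) hw
  choose n hn using fun w : R.W => E.exists_rep_of_mem_W w.2
  have := Fintype.ofFinite R.W
  have := Fintype.ofFinite E.B
  have := fun w : R.W => Fintype.ofFinite (E.XS (R.Inv w))
  let φ : E.B × (Σ w : R.W, E.XS (R.Inv w)) → G := fun p => p.1 * n p.2.1 * p.2.2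
  have a2 : ∑ g, ‖ω g * ω g⁻¹‖ ≤ ∑ p, ‖ω (φ p) * ω (φ p)⁻¹‖ := by
    refine le_trans (sum_le_sum_of_subset_of_nonneg (fun g _ => ?_) fun _ _ _ => norm_nonneg _)
      (sum_image_le_of_nonneg (f := fun g => ‖ω g * ω g⁻¹‖) fun _ _ => norm_nonneg _)
    obtain ⟨b, hb, m, w, hm, a, ha, rfl⟩ := dec g
    exact mem_image.mpr ⟨(⟨b * (m * (n ⟨w, hm.mem_W⟩)⁻¹), mul_mem hb (E.H_le_B
      (Elts.Rep.mul_inv_mem_H E hm (hn ⟨w, hm.mem_W⟩)))⟩, ⟨⟨w, hm.mem_W⟩, ⟨a, ha⟩⟩), mem_univ _,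
      by simp [φ, mul_assoc]⟩
  simp only [φ, fun (b : E.B) (w : R.W) (a : E.XS (R.Inv w)) => h.FB b.2 (ub a.2) (n w),
    Fintype.sum_prod_type, Fintype.sum_sigma, sum_const, card_univ, nsmul_eq_mul,
    ← Nat.card_eq_fintype_card, fun w : R.W => hF.card_XS_Inv w.2] at a2
  have a3 : ∑ w : R.W, ((Nat.card K ^ R.ln w : ℕ) : ℝ) * ‖ω (n w) * ω (n w)⁻¹‖ ≤ Nat.card R.W * q := by
    rw [Nat.card_eq_fintype_card (α := R.W), ← nsmul_eq_mul, ← card_univ]
    refine sum_le_card_nsmul _ _ _ fun w _ => ?_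
    rw [Nat.card_eq_fintype_card, Nat.cast_pow]
    exact (a1 w w.2 _ (hn w)).trans (by split_ifs; exacts [hq, le_rfl])
  have a4 := congrArg norm hs
  rw [norm_mul, Complex.norm_natCast, Complex.norm_natCast, ← Nat.card_eq_fintype_card,
    ← Subgroup.card_top, ← hG, hF.card_Gp, ← hF.card_B] at a4
  refine Nat.le_of_mul_le_mul_left ?_ (Nat.card_pos (α := E.B))
  rw [← Nat.cast_le (α := ℝ), ← a4, mul_left_comm, Nat.cast_mul, Nat.cast_mul, Nat.cast_mul,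
    Nat.card_eq_fintype_card (α := K)]
  gcongr
  exact (norm_sum_le _ _).trans (a2.trans (by gcongr))

end H38.MD
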