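import Mathlib
import Cfsg.Agent.Lib.MinDeg2.G2a
import Cfsg.Agent.Lib.MinDeg2.Hecke

/-!
The dimension counts for a group of type `G₂`.
-/

set_option autoImplicit false
set_option linter.unusedSectionVars false

namespace H38.MD.G2

open Finset Module Cfsg Cfsg.Lie

variable {K : Type*} [Field K] [Fintype K] {G : Type*} [Group G] {X : StRel chevG2 K G}
  {V : Type*} [AddCommGroup V] [Module ℂ V] [FiniteDimensional ℂ V] {ρ : Representation ℂ G V}
  {ψ : AddChar K ℂ} {R : RootSys chevG2} {E : Elts R.toRS K G} {Z : List ℕ} {N : List (ℕ × K)}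

set_option hygiene false in
local notation "d" => dm X ρ ψ

set_option hygiene false in
local notation "q" => Fintype.card K

lemma dzero (r : ℕ) : d Z ((r, 0) :: N) = d (r :: Z) N := by rw [dm, dm, ← inf_cons, inf_zero]

variable (hX : ∀ r t, E.x r t = X.x r t) (hψ : ψ.IsPrimitive)
include hX

lemma dc (e : ℕ) {r : ℕ} {a b : K} (ha : a ≠ 0) (hb : b ≠ 0) (h : (e < 12 &&
    (Z ++ r :: N.map (·.1)).all (· < 12) && pr e r == 1 && (N.map (·.1)).all (pr e · == 0)) = true) :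
    d Z ((r, a) :: N) = d Z ((r, b) :: N) := by
  simp only [Bool.and_eq_true, beq_iff_eq] at h
  rw [dtor hX e (div_ne_zero hb ha) (by simp only [Bool.and_eq_true]; exact h.1.1), List.map_cons,
    h.1.2, zpow_one, mul_div_cancel₀ _ ha, List.map_congr_left (g := id) fun p hp => by
      rw [beq_iff_eq.mp (List.all_eq_true.mp h.2 _ (List.mem_map_of_mem hp))]; simp, List.map_id]

lemma dc2 (e e' : ℕ) {r s : ℕ} {a b a' b' : K} (ha : a ≠ 0) (hb : b ≠ 0) (ha' : a' ≠ 0) (hb' : b' ≠ 0)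
    (h : (e < 12 && (Z ++ [r, s]).all (· < 12) && pr e r == 1 && [s].all (pr e · == 0)) = true)
    (h' : (e' < 12 && (Z ++ [s, r]).all (· < 12) && pr e' s == 1 && [r].all (pr e' · == 0)) = true) :
    d Z [(r, a), (s, a')] = d Z [(r, b), (s, b')] := by
  rw [dc hX e ha hb h, dm_eq (Z' := Z) (N' := [(s, a'), (r, b)]) (by simp) (by simp),
    dc hX e' ha' hb' h']
  exact dm_eq (by simp) (by simp)

include hψ

lemma long_count :
    (∀ a ≠ 0, d [] [(11, 1)] = q * d [11] [(10, a)]) ∧ (∀ a ≠ 0, d [] [(11, 1)] = q * d [1] [(6, a)]) ∧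
    finrank ℂ V = d [11] [] + (q - 1) * d [] [(11, 1)] ∧
    d [11] [] = d [10, 11] [] + (q - 1) * d [11] [(10, 1)] ∧ d [10, 11] [] = d [6, 11] [] := by
  obtain ⟨c, hc, hw⟩ := dweyl (ρ := ρ) (ψ := ψ) hX 0 (by omega)
  obtain ⟨c', hc', hw'⟩ := dweyl (ρ := ρ) (ψ := ψ) hX 1 (by omega)
  have h0 : ((0 : ℕ) : K) = 0 := Nat.cast_zero
  have a1 : ∀ a ≠ 0, d [] [(11, 1)] = d [] [(10, a)] := fun a ha =>
    (dc hX 6 one_ne_zero (mul_ne_zero ha (hc' 11 (by omega))) rfl).trans (hw' [] [(11, a)] rfl).symm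
  refine ⟨fun a ha => (a1 a ha).trans (dheis hψ h0 11 5 rfl rfl (by simp) ha (by simp)), fun a ha =>
    ((a1 _ (mul_ne_zero ha (hc 10 (by omega)))).trans (hw [] [(10, a)] rfl).symm).trans
      (dheis hψ h0 1 11 rfl rfl (by simp) ha (.head _)), ?_,
    dsplit hψ h0 rfl fun a ha => dc hX 11 ha one_ne_zero rfl, hw [6, 11] [] rfl⟩
  rw [← dm_nil (X := X) (ρ := ρ) (ψ := ψ)]
  exact dsplit hψ h0 rfl fun a ha => dc hX 6 ha one_ne_zero rfl

/-- The count in characteristic different from three. -/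
theorem count_ne (h3 : (3 : K) ≠ 0) {c : K} (hc : c ≠ 0) (hc' : c ^ 3 ≠ 1)
    (hρ : d [11] [] < finrank ℂ V) : 2 * ((q - 1) * (q + q * q)) ≤ finrank ℂ V ∨
      d [] [(11, 1)] = q * q ∧ 0 < d [6, 11] [(10, 1)] ∧
      d [10, 6, 11] [] + (q - 1) * (1 + q + q * q) ≤ finrank ℂ V := by
  have h0 : ((0 : ℕ) : K) = 0 := Nat.cast_zero
  obtain ⟨a1, -, a2, a3, a4⟩ := long_count (ρ := ρ) hX hψ
  have a5 : d [11] [(10, 1)] = q * d [9, 11] [(10, 1)] :=
    dheis hψ h0 9 7 rfl rfl (by simpa) one_ne_zero (by simp)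
  have a6 : d [6, 11] [] = d [10, 6, 11] [] + (q - 1) * d [6, 11] [(10, 1)] :=
    dsplit hψ h0 rfl fun a ha => dc hX 11 ha one_ne_zero rfl
  have a7 := a1 1 one_ne_zero
  rcases Nat.lt_trichotomy (d [9, 11] [(10, 1)]) 1 with h | h | h
  · rw [Nat.lt_one_iff.mp h] at a5
    simp [a2, a7, a5] at hρ
  · have a8 := (dkill hX h0 6 8 hc h.le rfl (by simp [pr]) (by simpa [pr] using hc')).trans h
    have a9 : 0 < d [6, 11] [(10, 1)] := (a8 ▸ one_pos).trans_le (dm_le (by simp) (by simp))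
    refine Or.inr ⟨by rw [a7, a5, h, mul_one], a9, ?_⟩
    rw [a2, a3, a4, a6, a7, a5, h]
    linarith only [Nat.mul_le_mul_left (q - 1) a9]
  · left
    rw [a2, a3, a7, a5]
    linarith only [Nat.mul_le_mul_left ((q - 1) * (q + q * q)) h, Nat.zero_le (d [10, 11] [])]

omit hX in
lemma three (h3 : ((3 : ℕ) : K) = 0) {c : K} (hc : c ≠ 0) (hc' : c ^ 2 ≠ 1) {a b : K}
    (h : a ≠ 0 ∨ b ≠ 0) :
    ∃ j, d [9, 11] [(10, a), (8, b)] = 3 * j ∧ d [6, 9, 11] [(10, a), (8, b)] ≤ j := by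
  obtain ⟨u, hu⟩ : ∃ u, a * u ^ 3 - b * u ≠ 0 := by
    by_cases e : a = b
    · subst e
      exact ⟨c, by
        rw [show a * c ^ 3 - a * c = a * c * (c ^ 2 - 1) by ring]
        exact mul_ne_zero (mul_ne_zero (by tauto) hc) (sub_ne_zero.mpr hc')⟩
    · exact ⟨1, by simpa [sub_eq_zero]⟩
  obtain ⟨t, ht⟩ := exists_psi_ne hψ hu
  have z3 : ∀ k : ZMod 3, k ≠ 0 → k = 1 ∨ k = -1 := by decide
  have : CharP K 3 := (CharP.charP_iff_prime_eq_zero Nat.prime_three).mpr h3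
  let f := ZMod.castHom (dvd_refl 3) K
  have s6 := fun t => st (X := X) (ρ := ρ) (ψ := ψ) (Z := [9, 11]) (N := [(10, a), (8, b)]) (r := 6) h3 rfl t
  have s7 := st (X := X) (ρ := ρ) (ψ := ψ) (Z := [9, 11]) (N := [(10, a), (8, b)]) (r := 7) h3 rfl u
  refine ⟨_, heis ρ (x := fun k : ZMod 3 => X.x 6 (f k * t)) (μ := fun _ => 1)
    ⟨fun _ => one_ne_zero, fun k => ⟨Equiv.addLeft k, fun k' => ⟨by
      simp [xa, add_mul], (mul_one _).symm⟩⟩⟩ (fun k => s6 _) 0 (by simp [X.x_zero (show 6 < 12 by omega)]) rfl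
    fun k hk => ?_, ?_⟩
  · obtain ⟨z, a1, a2⟩ := scal (s6 (f k * t)) s7 (cm (by omega) _ _)
      (c := ψ ((a * u ^ 3 - b * u) * (f k * t))) fun v hv => by
      obtain ⟨b1, b2⟩ := mem_Bx.mp hv
      simp only [show ct 6 7 = [(8, 1, 1, 1), (9, 1, 1, 2), (10, -1, 1, 3), (11, -2, 2, 3)] from rfl,
        List.map_cons, List.map_nil, List.prod_cons, List.prod_nil, mul_one, mul_app]
      rw [(mem_Ea_zero ρ ψ).mp (b1 11 (by simp)), b2 (10, a) (by simp), map_smul, map_smul,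
        (mem_Ea_zero ρ ψ).mp (b1 9 (by simp)), b2 (8, b) (by simp), smul_smul,
        ← AddChar.map_add_eq_mul]
      congr 2
      push_cast; ring
    refine ⟨_, s7, z, _, a1, ?_, a2⟩
    obtain rfl | rfl := z3 k hk
    · simpa using ht
    · simpa [← psi_inv] using ht
  · rw [dm, ← inf_zero]
    exact Submodule.finrank_mono (inf_le_inf_left _ fun v hv k => by
      rw [(mem_Ea_zero ρ ψ).mp hv, one_smul])

/-- The count in characteristic three. -/
theorem count_three (h3 : ((3 : ℕ) : K) = 0) {c : K} (hc : c ≠ 0) (hc' : c ^ 2 ≠ 1)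
    (hρ : d [9] [] < finrank ℂ V) {p : ℕ} (hp : q = 3 * p + 3) :
    (q * q - 1) * (q * q + 3) ≤ finrank ℂ V ∨ (q * q - 1) * (q * q) + 4 * q * (q - 1) ≤ finrank ℂ V ∨
      2 * ((q * q - 1) * (q * q - 1)) ≤ finrank ℂ V ∨
      (q * q - 1) * (q * q) + 2 * q * (q - 1) ≤ finrank ℂ V ∧
        finrank ℂ V = d [11] [] + (q - 1) * q ^ 3 := by
  obtain ⟨a1, -, a2, a3, -⟩ := long_count (ρ := ρ) hX hψ
  replace a1 := a1 1 one_ne_zero
  obtain ⟨e, he, hw⟩ := dweyl (ρ := ρ) (ψ := ψ) hX 0 (by omega)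
  obtain ⟨e', he', hw'⟩ := dweyl (ρ := ρ) (ψ := ψ) hX 1 (by omega)
  have n : ∀ r < 12, 1 * e r ≠ 0 ∧ 1 * e' r ≠ 0 := fun r hr => by simp [he r hr, he' r hr]
  have h2 : ((2 : ℤ) : K) ≠ 0 := fun h => one_ne_zero (by linear_combination (norm := (push_cast; ring)) h3 - h : (1 : K) = 0)
  have hq : 0 < q := Fintype.card_pos
  have b1 : d [] [(11, 1)] = d [9] [(11, 1)] + (q - 1) * d [] [(9, 1), (11, 1)] :=
    dsplit hψ h3 rfl fun a ha => dc hX 7 ha one_ne_zero rfl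
  have b2 : d [] [(9, 1), (11, 1)] = q * d [8] [(9, 1), (11, 1)] :=
    dheis hψ h3 8 7 rfl rfl h2 one_ne_zero (by simp)
  have b3 : d [8] [(9, 1), (11, 1)] = q * d [10, 8] [(9, 1), (11, 1)] :=
    dheis hψ h3 10 6 rfl rfl (by simp) one_ne_zero (by simp)
  have b4 : d [9] [(11, 1)] = d [8, 9] [(11, 1)] + (q - 1) * d [8] [(9, 1), (11, 1)] :=
    dsplit hψ h3 rfl fun a ha => (hw [8] [(9, a), (11, 1)] rfl).trans (dc2 hX 7 6
      (mul_ne_zero ha (he 9 (by omega))) one_ne_zero (n 11 (by omega)).1 one_ne_zero rfl rfl)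
  have b5 : d [9] [(11, 1)] = q * d [9, 11] [(10, 1)] :=
    (dheis hψ h3 10 6 rfl rfl (by simp) one_ne_zero (by simp)).trans (congrArg _
      ((hw' [11, 9] [(10, 1)] rfl).trans ((dc hX 5 (n 10 (by omega)).2 one_ne_zero rfl).trans
        (dm_eq (by simp) (by simp)))))
  have b6 : 3 ∣ d [9, 11] [(10, 1)] := by
    rw [dsum hψ h3 (r := 8) rfl]
    refine dvd_sum fun a _ => ?_
    obtain ⟨j, h, -⟩ := three (X := X) (ρ := ρ) hψ h3 hc hc' (a := 1) (b := a) (by simp)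
    exact ⟨j, (dm_eq (by simp) (by simp)).trans h⟩
  have b7 : d [10, 11] [] = d [9, 10, 11] [] + (q - 1) * (q * d [8, 10, 11] [(9, 1)]) :=
    dsplit hψ h3 rfl fun a ha => (dc hX 7 ha one_ne_zero rfl).trans
      (dheis hψ h3 8 7 rfl rfl h2 one_ne_zero (by simp))
  have b8 : d [8, 11] [(9, 1)] = d [8, 10, 11] [(9, 1)] + (q - 1) * d [10, 8] [(9, 1), (11, 1)] := by
    rw [dm_eq (Z := [8, 10, 11]) (Z' := [10, 8, 11]) (N' := [(9, 1)]) (by simp) (by simp)]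
    refine dsplit hψ h3 rfl fun a ha => Nat.eq_of_mul_eq_mul_left hq ?_
    rw [← b3, ← dheis hψ h3 8 7 rfl rfl h2 one_ne_zero (by simp)]
    refine (hw' [10] [(11, a), (9, 1)] rfl).trans (Nat.eq_of_mul_eq_mul_left hq ?_)
    rw [← b2, ← dheis hψ h3 10 6 rfl rfl (by simp) (mul_ne_zero ha (he' 11 (by omega))) (by simp),
      dm_eq (Z' := []) (N' := [(9, 1 * e' 9), (11, a * e' 11)]) (by simp) (by simp)]
    exact dc2 hX 7 6 (n 9 (by omega)).2 one_ne_zero (mul_ne_zero ha (he' 11 (by omega)))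
      one_ne_zero rfl rfl
  have b9 : ∃ j, d [8, 11] [(9, 1)] = 3 * j ∧ d [8, 10, 11] [(9, 1)] ≤ j := by
    choose j h h' using fun a => three (X := X) (ρ := ρ) hψ h3 hc hc' (a := a) (Or.inr (n 8 (by omega)).1)
    refine ⟨∑ a, j a, ?_, ?_⟩
    · rw [mul_sum, ← sum_congr rfl fun a _ => h a, ← dsum hψ h3 rfl]
      exact hw [9, 11] [(8, 1)] rfl
    · refine (hw [9, 6, 11] [(8, 1)] rfl).trans_le ?_
      refine (dsum hψ h3 (r := 10) rfl).trans_le (sum_le_sum fun a _ => le_trans ?_ (h' a))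
      exact dm_le (by simp) (by simp)
  obtain ⟨j, b9, b10⟩ := b9
  obtain ⟨i, b6⟩ := b6
  have c1 : d [11] [(10, 1)] = 3 * i + (q - 1) * (q * d [10, 8] [(9, 1), (11, 1)]) :=
    Nat.eq_of_mul_eq_mul_left hq (by rw [← a1, b1, b5, b2, b3, b6]; ring)
  have c2 : (q - 1) * d [10, 8] [(9, 1), (11, 1)] ≤ 3 * i :=
    Nat.le_of_mul_le_mul_left (by rw [← b6, ← b5, b4, b3, mul_left_comm]; exact le_add_self) hq
  have c3 : q * q - 1 = (q - 1) * (q + 1) := by rw [← sq, ← one_pow 2, Nat.sq_sub_sq, mul_comm, one_pow]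
  have c4 : finrank ℂ V = d [10, 11] [] + (q * q - 1) * d [11] [(10, 1)] := by
    rw [a2, a3, a1, c3]; ring
  have c5 : q - 1 = 3 * p + 2 := by omega
  rcases Nat.lt_trichotomy (d [10, 8] [(9, 1), (11, 1)]) 1 with h | h | h
  · have c6 : d [] [(9, 1)] = d [11] [(9, 1)] + (q - 1) * d [] [(9, 1), (11, 1)] :=
      dsplit hψ h3 rfl fun a ha => (dc hX 6 ha one_ne_zero rfl).trans (dm_eq (by simp) (by simp))
    have c7 : d [11] [(9, 1)] = q * d [8, 11] [(9, 1)] :=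
      dheis hψ h3 8 7 rfl rfl h2 one_ne_zero (by simp)
    have c8 : d [] [] = d [9] [] + (q - 1) * d [] [(9, 1)] :=
      dsplit hψ h3 rfl fun a ha => dc hX 7 ha one_ne_zero rfl
    rw [Nat.lt_one_iff.mp h] at b8 b3
    rw [← dm_nil (X := X) (ρ := ρ) (ψ := ψ), c8, c6, c7, b2, b3, show d [8, 11] [(9, 1)] = 0 by omega] at hρ
    simp at hρ
  · rw [h, mul_one] at c1 c2 b8
    have c6 : (q - 1) * q + q = q * q := by rw [← add_one_mul, Nat.sub_add_cancel (show 1 ≤ q from hq)]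
    by_cases c7 : q + 3 ≤ 3 * i
    · exact Or.inl (by rw [c4, c1]; exact le_add_left (Nat.mul_le_mul_left _ (by omega)))
    have c8 : d [11] [(10, 1)] = q * q := by omega
    by_cases c9 : 4 ≤ d [8, 10, 11] [(9, 1)]
    · exact Or.inr (Or.inl (by
        rw [c4, c8, b7]
        linarith only [Nat.mul_le_mul_left ((q - 1) * q) c9, Nat.zero_le (d [9, 10, 11] [])]))
    have c10 : d [8, 10, 11] [(9, 1)] = 1 := by omega
    have c11 := (dkill hX h3 6 6 hc c10.le rfl (by simp [pr]) (by simpa [pr] using hc')).trans c10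
    have c12 : d [9, 10, 11] [] = d [8, 9, 10, 11] [] + (q - 1) * (q * 1) := by
      refine dsplit hψ h3 rfl fun a ha => (dc hX 6 ha (n 8 (by omega)).1 rfl).trans
        ((dheis hψ h3 6 7 rfl rfl (by simp) (n 8 (by omega)).1 (by simp)).trans (congrArg _ ?_))
      rw [← c11]
      exact ((dm_eq (by simp [sg]) (by simp [sg])).trans (hw [6, 9, 10, 11] [(8, 1)] rfl)).symm
    refine Or.inr (Or.inr (Or.inr ⟨?_, ?_⟩))
    · rw [c4, c8, b7, c10, c12]; linarith only [Nat.zero_le (d [8, 9, 10, 11] [])]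
    rw [a2, a1, c8]; ring
  · refine Or.inr (Or.inr (Or.inl ?_))
    have : (q * q - 1) * 2 ≤ d [11] [(10, 1)] := by
      rw [c1, c3]; linarith only [Nat.mul_le_mul_left ((q - 1) * (q + 1)) h, c2]
    rw [c4]; linarith only [Nat.mul_le_mul_left (q * q - 1) this, Nat.zero_le (d [10, 11] [])]

end H38.MD.G2
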