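import Mathlib
import Cfsg.Agent.Lib.MinDeg2.G2b
import Cfsg.Agent.Lib.MinRep.Div
import Cfsg.Agent.Lib.Weyl.PoinW

/-!
The finer arguments for a group of type `G₂`: the fixed space of the long root elements and the
divisibility condition.
-/

set_option autoImplicit false
set_option linter.unusedSectionVars false

namespace H38.MD.G2

open Finset Module Cfsg Cfsg.Lie

variable {K : Type*} [Field K] [Fintype K] {G : Type*} [Group G] {X : StRel chevG2 K G}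
  {V : Type*} [AddCommGroup V] [Module ℂ V] [FiniteDimensional ℂ V] {ρ : Representation ℂ G V}
  {ψ : AddChar K ℂ} {R : RootSys chevG2} {E : Elts R.toRS K G}

set_option hygiene false in
local notation "d" => dm X ρ ψ

set_option hygiene false in
local notation "q" => Fintype.card K

lemma cm0 {r s : ℕ} (h : r < 12 ∧ s < 12 ∧ s ≠ r ∧ s + r ≠ 11 ∧ (ct r s).isEmpty = true) (t u : K) :
    X.x s u * X.x r t = X.x r t * X.x s u := by
  rw [cm ⟨h.1, h.2.1, h.2.2.1, h.2.2.2.1⟩, List.isEmpty_iff.mp h.2.2.2.2]; simp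

lemma cm1 {r s k : ℕ} {M : ℤ} (h : r < 12 ∧ s < 12 ∧ s ≠ r ∧ s + r ≠ 11) (e : ct r s = [(k, M, 1, 1)])
    (h' : k < 12 ∧ s < 12 ∧ s ≠ k ∧ s + k ≠ 11 ∧ (ct k s).isEmpty = true) (t u : K) :
    X.x s u * X.x r t * (X.x s u)⁻¹ = X.x r t * X.x k (-(M * t * u)) := by
  rw [cm h, e, mul_inv_eq_iff_eq_mul, mul_assoc, mul_assoc, ← cm0 h']; simp

variable (hX : ∀ r t, E.x r t = X.x r t) (hψ : ψ.IsPrimitive)
include hX hψ

open Classical in
omit hψ in
lemma orth (hz : d [10, 6, 11] [] = 0) : ∃ T : V →ₗ[ℂ] V, ∀ y ∈ Bx X ρ ψ [10, 11] [], ∀ t s,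
    T (ρ (X.x 0 t) (ρ (X.x 1 s) y)) = if t = 0 ∧ s = 0 then y else 0 := by
  have h0 : ((0 : ℕ) : K) = 0 := Nat.cast_zero
  obtain ⟨e', he', hw'⟩ := dweyl (ρ := ρ) (ψ := ψ) hX 1 (by omega)
  let x : K × K → G := fun p => X.x 10 p.1 * X.x 11 p.2
  have xm : ∀ a b, x (a + b) = x a * x b := fun a b => by
    simp only [x, Prod.fst_add, Prod.snd_add, ← xa (show 10 < 12 by omega), ← xa (show 11 < 12 by omega),
      mul_assoc]
    rw [← mul_assoc (X.x 11 _) (X.x 10 _), cm0 (s := 11) (r := 10) (by decide), mul_assoc]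
  have fam : Fam x fun _ => (1 : ℂ) :=
    ⟨fun _ => one_ne_zero, fun a => ⟨Equiv.addLeft a, fun b => ⟨xm a b, (mul_one _).symm⟩⟩⟩
  have x10 : ∀ t, x (t, 0) = X.x 10 t := fun t => by simp [x, X.x_zero (show 11 < 12 by omega)]
  have x11 : ∀ t, x (0, t) = X.x 11 t := fun t => by simp [x, X.x_zero (show 10 < 12 by omega)]
  set T := av ρ x fun _ => 1
  have T0 : ∀ p v, ρ (x p) (T v) = T v := fun p v => (av_mem_Eg ρ fam v p).trans (one_smul _ _)
  have T1 : ∀ v, T v ∈ Bx X ρ ψ [10, 11] [] := fun v => mem_Bx.mpr ⟨by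
    simp only [List.forall_mem_cons, mem_Ea_zero, ← x10, ← x11, T0]; simp, by simp⟩
  have T2 : ∀ v ∈ Bx X ρ ψ [10, 11] [], T v = v := fun v hv => av_of_mem ρ fam fun p => by
    rw [mul_app, (mem_Ea_zero ρ ψ).mp ((mem_Bx.mp hv).1 11 (by simp)),
      (mem_Ea_zero ρ ψ).mp ((mem_Bx.mp hv).1 10 (by simp)), one_smul]
  have T3 : ∀ p v, T (ρ (x p) v) = T v := fun p v =>
    (av_comm ρ (Equiv.refl _) (fun t => ⟨by
      rw [← xm, add_comm, xm, mul_inv_cancel_right]; rfl, rfl⟩) v).symm.trans (T0 p v)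
  have Tc : ∀ g (e : K × K ≃ K × K), (∀ t, g * x t * g⁻¹ = x (e t)) → ∀ v,
      ρ g (T v) = T (ρ g v) := fun g e h v =>
    av_comm ρ (x := x) (y := x) (μ := fun _ => 1) (ν := fun _ => 1) e (fun t => ⟨h t, rfl⟩) v
  have T6 : ∀ u v, ρ (X.x 6 u) (T v) = T (ρ (X.x 6 u) v) := fun u =>
    Tc _ (Equiv.prodShear (Equiv.refl K) fun s => Equiv.addLeft (s * u)) fun p => by
      simp only [x]
      rw [← conj_mul, cm1 (r := 10) (s := 6) (k := 11) (M := -1) (by omega) rfl (by decide), cm0 (s := 6) (r := 11) (by decide),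
        mul_inv_cancel_right, mul_assoc,
        xa (by omega)]; simp
  have T5 : ∀ u v, ρ (X.x 5 u) (T v) = T (ρ (X.x 5 u) v) := fun u =>
    Tc _ ((Equiv.prodComm K K).trans ((Equiv.prodShear (Equiv.refl K) fun s =>
      Equiv.addRight (s * u)).trans (Equiv.prodComm K K))) fun p => by
      simp only [x]
      rw [← conj_mul, cm1 (r := 11) (s := 5) (k := 10) (M := -1) (by omega) rfl (by decide), cm0 (s := 5) (r := 10) (by decide),
        mul_inv_cancel_right, cm0 (s := 11) (r := 10) (by decide), ← mul_assoc, xa (by omega)]; simp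
  have key : ∀ r k0 k : Fin chevG2.nroots, ((r : ℕ) ∈ [10, 11] ∧ (k0 : ℕ) ∈ [10, 11] ∧ ∀ i < 2,
      chevG2.cartan i k = chevG2.cartan i k0 - chevG2.pairing r k0 * chevG2.cartan i r) →
      (∀ u v, T (ρ (X.x r u) v) = T v) → (∀ u v, ρ (X.x k u) (T v) = T (ρ (X.x k u) v)) →
      d [k, 10, 11] [] = 0 → ∀ y ∈ Bx X ρ ψ [10, 11] [], ∀ s ≠ 0,
      T (ρ (X.x (11 - r) s) y) = 0 := fun r k0 k a1 a2 a3 a4 y hy s hs => by
    have b1 := E.x_neg_root r (-s⁻¹)
    rw [inv_neg, inv_inv, neg_neg, neg_neg, hX, hX, R.neg_eq, (tab_eq r r.2).1] at b1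
    obtain ⟨a, ha, b2⟩ := (E.rep_n r (c := -s⁻¹) (by simpa)).conj_x k0
    rw [← R.eq_refl_of_wt (k := k) fun i => by
      rw [← R.cartan_eq, ← R.cartan_eq, ← R.cartan_eq, ← R.pairing_eq]; exact a1.2.2 i i.2] at b2
    simp only [hX] at b2
    rw [b1, mul_app, mul_app, a2, (mem_Ea_zero ρ ψ).mp ((mem_Bx.mp hy).1 _ a1.1)]
    by_contra b3
    refine (dm_pos (inf_zero (X := X) (ρ := ρ) (ψ := ψ) k ▸ ⟨T1 _, (mem_Ea_zero ρ ψ).mpr fun u => ?_⟩) b3).ne' a4
    rw [a3, (mem_Ea_zero ρ ψ).mp (Ea_map ρ ψ ha b2 (by rw [zero_mul]; exact (mem_Bx.mp hy).1 _ a1.2.1))]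
  have k1 := key ⟨10, by decide⟩ ⟨11, by decide⟩ ⟨6, by decide⟩ (by decide +kernel)
    (fun u v => x10 u ▸ T3 _ v) T6 ((dm_eq (by simp) (by simp)).trans hz)
  have k0 := key ⟨11, by decide⟩ ⟨10, by decide⟩ ⟨5, by decide⟩ (by decide +kernel)
    (fun u v => x11 u ▸ T3 _ v) T5 ((hw' [6, 11, 10] [] rfl).trans ((dm_eq (by simp) (by simp)).trans hz))
  refine ⟨T, fun y y1 t s => ?_⟩
  by_cases ht : t = 0
  · rw [ht, X.x_zero (show 0 < 12 by omega), map_one, Module.End.one_apply]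
    by_cases hs : s = 0
    · simp [hs, X.x_zero (show 1 < 12 by omega), T2 y y1]
    · rw [if_neg (by tauto)]; exact k1 y y1 s hs
  · have := cm1 (X := X) (r := 0) (s := 6) (k := 1) (M := 1) (by omega) rfl (by decide) t (-(s / t))
    rw [show -(((1 : ℤ) : K) * t * -(s / t)) = s by field_simp; simp] at this
    rw [if_neg (by tauto), ← mul_app, ← this, mul_app, mul_app, ← T6]
    exact (app_eq_zero ρ).mpr (k0 _ (inv_mem (st h0 rfl _) y y1) t ht)

theorem no_zero (h3 : (3 : K) ≠ 0) {c : K} (hc : c ^ 3 = 1) (hc' : c ≠ 1)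
    (hD : d [] [(11, 1)] = q * q) (h1 : 0 < d [6, 11] [(10, 1)]) : d [10, 6, 11] [] ≠ 0 := by
  classical
  intro hz
  have h0 : ((0 : ℕ) : K) = 0 := Nat.cast_zero
  have c0 : c ≠ 0 := by rintro rfl; simp at hc
  obtain ⟨e, he, hw⟩ := dweyl (ρ := ρ) (ψ := ψ) hX 0 (by omega)
  obtain ⟨T, hT⟩ := orth hX hz
  have a0 : d [10, 11] [(6, 1)] = d [6, 11] [(10, 1)] :=
    (hw [6, 11] [(10, 1)] rfl).trans (dc hX 11 (by simp [he]) one_ne_zero rfl)
  obtain ⟨⟨y, hy⟩, y0⟩ := finrank_pos_iff_exists_ne_zero.mp (h1.trans_eq a0.symm)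
  have a1 := hT y (mem_Bx.mpr ⟨(mem_Bx.mp hy).1, by simp⟩)
  have a2 : ∀ g, 1 ≤ d [1] [(0, g), (6, 1)] := fun g => by
    refine dm_pos (v := ea ρ ψ (X.x 0) g (ea ρ ψ (X.x 1) 0 y)) (inf_cons (X := X) (ρ := ρ) (ψ := ψ) 0 g ▸
      ⟨ea_mem ρ ψ fun t => st h0 rfl t _ (inf_zero (X := X) (ρ := ρ) (ψ := ψ) 1 ▸ ⟨ea_mem ρ ψ fun t =>
        st h0 rfl t _ (mem_Bx.mpr ⟨by simp, (mem_Bx.mp hy).2⟩), ea_mem_Ea ρ ψ (xa (by omega)) _ _⟩),
        ea_mem_Ea ρ ψ (xa (by omega)) _ _⟩) fun a => y0 (Subtype.ext ?_)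
    simpa [ea, av_apply, a1, ite_and] using congrArg T a
  have a3 : d [1] [(6, 1)] = q := Nat.eq_of_mul_eq_mul_left Fintype.card_pos
    (((long_count hX hψ).2.1 1 one_ne_zero).symm.trans hD)
  have a4 := (sum_eq_sum_iff_of_le fun g _ => a2 g).mp (by
    rw [← dsum hψ h0 rfl, a3]; simp)
  have a5 : d [4, 1] [(6, 1)] = q := by
    rw [dsum hψ h0 (r := 0) rfl, sum_congr rfl fun g hg => (dkill hX h0 4 9 c0 (a4 g hg).ge rfl
      (by simp [pr, zpow_ofNat, hc]) (by simpa [pr] using hc')).trans (a4 g hg).symm]; simp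
  have a6 : d [1] [(6, 1)] = q * d [4, 1] [(6, 1)] :=
    dheis hψ h0 4 8 rfl rfl (by simpa) one_ne_zero (.head _)
  rw [a3, a5] at a6
  exact Fintype.one_lt_card.ne' (Nat.mul_eq_left Fintype.card_ne_zero |>.mp a6.symm)

omit hψ in
lemma fix_U {c : K} (hc : c ≠ 0) (hc' : c ≠ 1) (h : d [10, 6, 11] [] = 1) :
    finrank ℂ (Fx ρ E.U) = 1 := by
  have h0 : ((0 : ℕ) : K) = 0 := Nat.cast_zero
  have a1 := (dkill hX h0 8 9 hc h.le rfl (by simp) (by simpa [pr] using hc')).trans h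
  have a2 := (dkill hX h0 9 8 hc a1.le rfl (by simp) (by simpa [pr] using hc')).trans a1
  have a3 := (dkill hX h0 7 9 hc a2.le rfl (by simp) (by simpa [pr] using hc')).trans a2
  have a4 : ∀ r < 12, chevG2.IsPosRoot r ↔ r ∈ [7, 9, 8, 10, 6, 11] := by decide +kernel
  suffices Fx ρ E.U = Bx X ρ ψ [7, 9, 8, 10, 6, 11] [] by rw [this]; exact a3
  ext v
  simp only [mem_Fx_iff, mem_Bx, PreElts.U, E.XS_le, Set.mem_ofPred_eq, mem_Pt, hX, mem_Ea_zero,
    ← R.isPosRoot_iff, List.not_mem_nil, false_imp_iff, implies_true, and_true]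
  exact ⟨fun a k hk => a ⟨k, by revert k; decide⟩ ((a4 k (by revert k; decide)).mpr hk),
    fun a r hr => a r ((a4 r r.2).mp hr)⟩

omit hψ hX in
lemma poin : (∑ᶠ w : R.W, q ^ R.ln w) = (1 + q) * ∑ i ∈ range 6, q ^ i := by
  have h := H39.poinWG2 R (q : ℤ)
  have h1 : (1 : ℤ) < q := by exact_mod_cast Fintype.one_lt_card
  have := Fintype.ofFinite R.W
  rw [finsum_eq_sum_of_fintype] at h ⊢
  zify
  refine mul_right_cancel₀ (b := ((q : ℤ) - 1) ^ 2) (pow_ne_zero _ (by omega)) ?_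
  rw [h]; simp only [sum_range_succ]; ring

omit hψ in
theorem dvd_P [Finite G] (hF : E.Faith) (hG : E.Gp = ⊤) (hρ : ρ.IsIrreducible) :
    finrank ℂ V ∣ (∑ i ∈ range 6, q ^ i) * (q * d [11] []) := by
  classical
  have := Fintype.ofFinite G
  obtain ⟨i, hi⟩ : ∃ i : Fin chevG2.rank, (i : ℕ) = 0 := ⟨⟨0, by decide⟩, rfl⟩
  obtain ⟨θ, hθ⟩ : ∃ i : Fin chevG2.nroots, (i : ℕ) = 11 := ⟨⟨11, by decide⟩, rfl⟩
  have a1 : (R.WJ {i} : Set (Equiv.Perm _)) = {1, R.s i} := by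
    refine Set.Subset.antisymm (fun w hw => R.WJ_induction_left
      (P := fun w _ => w ∈ ({1, R.s i} : Set _)) (Or.inl rfl) ?_ hw) ?_
    · rintro j rfl w - (rfl | rfl)
      exacts [Or.inr (mul_one _), Or.inl (R.s_mul_self _)]
    · rintro _ (rfl | rfl)
      exacts [one_mem _, R.s_mem_WJ rfl]
  have a2 : R.ln (R.s i) = 1 := by
    simpa [R.ln_one] using R.ln_mul_s_of_pos (one_mem _) (i := i) (R.pos_sim i)
  have a3 : Fintype.card (G ⧸ E.P {i}) = ∑ i ∈ range 6, q ^ i := by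
    have b := (E.P {i}).index_mul_card
    have b1 : ∑ᶠ w : R.WJ {i}, q ^ R.ln w = 1 + q := by
      refine (finsum_set_coe_eq_finsum_mem (f := fun w => q ^ R.ln w) _).trans ?_
      rw [a1, finsum_mem_pair (fun e => by rw [← e, R.ln_one] at a2; omega), R.ln_one, a2]; simp
    rw [← Subgroup.card_top (G := G), ← hG, hF.card_Gp, hF.card_P, Nat.card_eq_fintype_card (α := K),
      poin, b1, ← mul_assoc, mul_comm] at b
    rw [← Nat.card_eq_fintype_card]
    refine Nat.eq_of_mul_eq_mul_left (Nat.mul_pos (Nat.mul_pos (pow_pos Fintype.card_pos _)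
      (Nat.card_pos (α := E.H))) (Nat.add_pos_left one_pos q)) (.trans ?_ (b.trans (mul_assoc ..).symm))
    rw [Subgroup.index]; ring
  have a4 : E.P {i} ≤ Subgroup.normalizer (E.XS {θ} : Set G) := by
    rw [E.P_eq]
    refine sup_le (E.XS_le.mpr fun r hr t => Subgroup.centralizer_le_normalizer _ ?_) (E.H_le_normalizer _)
    have : (r : ℕ) ≠ 0 ∧ ((r : ℕ) = 11 ∨ (ct 11 r).isEmpty = true) := by
      rcases hr with a | a
      · rw [Set.mem_ofPred_eq, ← R.isPosRoot_iff] at a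
        revert r; decide +kernel
      · rcases R.inSub_singleton.mp a with rfl | rfl
        · rw [R.sim_eq, hi]; decide +kernel
        · rw [R.neg_eq, R.sim_eq, hi]; decide +kernel
    rw [E.XS_singleton]
    rintro _ ⟨u, rfl⟩
    rw [hX, hX, hθ]
    by_cases e : (r : ℕ) = 11
    · rw [e, xa (by omega), xa (by omega), add_comm]
    · exact (cm0 ⟨by omega, r.2, e, by omega, this.2.resolve_left e⟩ _ _).symm
  rw [← a3]
  refine H20.MR.finrank_dvd hρ (fun w => univ.filter fun g => w.out⁻¹ * g * w.out ∈ E.XS {θ})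
    (fun h => ⟨MulAction.toPerm h, fun w g => ?_⟩) fun w => ?_
  · obtain ⟨p, hp⟩ := QuotientGroup.mk_out_eq_mul (E.P {i}) (h * w.out)
    rw [mem_filter_univ, mem_filter_univ, MulAction.toPerm_apply, ← MulAction.Quotient.mk_smul_out,
      smul_eq_mul, hp, Subgroup.mem_normalizer_iff''.mp (a4 p.2) (w.out⁻¹ * g * w.out)]
    congr! 1; group
  · have b := trace_av ρ (π := 1) (W := ⊤) ⟨fun _ => trivial, fun _ _ => rfl⟩
      (fam_ea ψ (xa (X := X) (show 11 < 12 by omega)) 0) fun t => St_top ρ _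
    rw [show (univ.filter fun g => w.out⁻¹ * g * w.out ∈ E.XS {θ}) =
        univ.image fun t => w.out * E.x θ t * w.out⁻¹ from Finset.ext fun g => by
      simp only [mem_filter_univ, E.XS_singleton, E.mem_X, mem_image, mem_univ, true_and]
      exact exists_congr fun t => by rw [mul_assoc, eq_inv_mul_iff_mul_eq, mul_inv_eq_iff_eq_mul],
      sum_image fun a _ b _ e => hF.x_inj θ (by simpa using e)]
    simp only [ρ.char_conj, hX, hθ]
    rw [Nat.cast_mul, dm, ← inf_zero, show Bx X ρ ψ [] [] = ⊤ by simp [Bx]]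
    refine .trans (sum_congr rfl fun t _ => ?_) b.symm
    simp [Representation.character]

end H38.MD.G2
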