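import Mathlib
import Cfsg.Agent.Lib.MinDeg2.Tw2
import Cfsg.Agent.Lib.Chev.TwTypes

/-!
The lower bound for the degrees of the twisted group of type `³D₄`.
-/

set_option autoImplicit false
set_option linter.unusedSectionVars false

namespace H38.MD

open H39 Finset Module Cfsg Cfsg.Lie

namespace TS

variable {ι l : Type} [Fintype l] [DecidableEq l] {R : RS ι l} {K : Type*} [Field K] {G : Type*}
  [Group G] {E : Elts R K G} [Finite ι] {T : Tw E} {f : K →+* K} {o : ℕ} (h : TS T f o)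
  [Finite G] [Fintype (Elts.fixF f)] {V : Type*} [AddCommGroup V] [Module ℂ V]
  [FiniteDimensional ℂ V] (ρ : Representation ℂ T.G1 V) {ψ : AddChar (Elts.fixF f) ℂ}
include h

theorem line0 {i : l} (hi : T.ρ i = i) {a : Elts.fixF f}
    (hn : ∀ r, R.Pos r → R.pair (R.sim i) r = 0 → Tor T f i r)
    (hm : finrank ℂ ↥(Ea ρ ψ (xl T (R.sim i)) a ⊓ Fx ρ (US T (AA R i))) ≤ 1) :
    Ea ρ ψ (xl T (R.sim i)) a ⊓ Fx ρ (US T (AA R i)) ≤
      Fx ρ (US T (PP R i ∩ {s | R.Pos s ∧ 0 ≤ R.pair (R.sim i) s})) := fun v hv =>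
  (mem_Fx_iff ρ).mpr (h.US_le ((closed_PP i).inter (closed_An' (R.sim i))) (fun r hr => hr.1.1)
    (fun r hr => ⟨h.stb_PP hi r hr.1, T.S.pos_τ.mpr hr.1.1,
      (h.pair_τ' (long_sim hi) r).symm ▸ hr.2.2⟩) fun r hr => by
    have := pair_le_one h.laced hr.1.2
    have := hr.2.2
    by_cases e : R.pair (R.sim i) r = 0
    · exact h.kill_tor ρ hm hv hr.1.1 (hn r hr.1.1 e)
        ((US_mono ((h.stb_S0 hi).O_sub ⟨e, Or.inl hr.1.1⟩)).trans (h.St_S0 ρ hi))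
    · exact (US_mono ((h.stb_AA hi).O_sub ⟨hr.1.1, by omega⟩)).trans ((mem_Fx_iff ρ).mp hv.2))

variable (hψ : ψ.IsPrimitive)
include hψ

theorem dim_long {c : l → ℕ}
    (hc : ∀ i L, T.S.Orth i L → Nat.card (US T (O T (R.sim i))) = (L.map c).prod) {θ : ι}
    (hθ : Hi T θ) {i : l} (hi : T.ρ i = i)
    (hm : ∀ a ≠ 0, finrank ℂ ↥(Ea ρ ψ (xl T (R.sim i)) a ⊓ Fx ρ (US T (AA R i))) = 1) {r : ι}
    (hr : T.S.τ r = r) {a : Elts.fixF f} (ha : a ≠ 0) :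
    Fintype.card (Elts.fixF f) * finrank ℂ (Ea ρ ψ (xl T r) a) = NN R c θ := by
  have key : ∀ r, T.S.τ r = r → ∃ s : Elts.fixF f, s ≠ 0 ∧ ∀ a,
      finrank ℂ (Ea ρ ψ (xl T r) a) = finrank ℂ (Ea ρ ψ (xl T θ) (a * s)) := fun r hr => by
    obtain ⟨w, hw, rfl, -⟩ := h.exists_cls hc hθ hr
    obtain ⟨n, hn⟩ := h.exists_rep hw
    obtain ⟨s, hs, e⟩ := h.finrank_W1 ρ (ψ := ψ) hn.1 hw hθ.long (St_top ρ n)
    exact ⟨s, hs, fun a => by have := e a; rwa [top_inf_eq, top_inf_eq] at this⟩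
  obtain ⟨s, hs, e⟩ := key r hr
  obtain ⟨s', hs', e'⟩ := key _ (long_sim hi)
  have h1 : a * s / s' ≠ 0 := by simp [*]
  have := h.heis_US ρ hψ (long_sim hi) (fun s hs => hs.2) (AA_nonneg h.laced i) (fun s hs => hs.1)
    (W := ⊤) (fun g _ => St_top ρ g) (fun _ _ g _ => St_top ρ g) h1
  rw [top_inf_eq, hm _ h1, e', div_mul_cancel₀ _ hs'] at this
  rw [e, this, ← h.card_AA hc hθ hi, Nat.card_eq_fintype_card (α := Elts.fixF f), mul_one]

theorem bound3 {a b : ι} (ha : T.S.τ a = a) (hb : T.S.τ b = b) (hp : R.pair a b = -1) {d : ℕ}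
    (hd : ∀ s ≠ 0, finrank ℂ (Ea ρ ψ (xl T (R.refl a b)) s) = d) {y : V}
    (h1 : y ∈ Ea ρ ψ (xl T (R.refl a b)) 0) (h2 : y ∈ Ea ρ ψ (xl T a) 0)
    (h3 : y ∉ Ea ρ ψ (xl T b) 0) :
    (Fintype.card (Elts.fixF f) - 1) * (Fintype.card (Elts.fixF f) * d + d +
      Fintype.card (Elts.fixF f)) ≤ Fintype.card (Elts.fixF f) * finrank ℂ V := by
  have hg := long_refl ha hb
  have p1 : R.pair (R.refl a b) a = 1 := by
    rw [pair_comm h.laced, pair_refl, R.pair_self, hp]; rfl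
  have p2 : R.pair (R.refl a b) b = 1 := by
    rw [pair_comm h.laced, pair_refl, R.pair_self, pair_comm h.laced b a, hp]; rfl
  have e1 := h.count_A2 ρ hψ ha hb hp (W := ⊤) (fun _ => St_top ρ _)
    (fun _ => St_top ρ _) (fun _ => St_top ρ _) (fun _ => St_top ρ _) (fun _ => St_top ρ _)
  have e2 := split' ρ (h.xl_add hg) hψ (W := ⊤) (fun t => St_top ρ _) (d := d) fun a ha => by
    rw [top_inf_eq, hd a ha]
  have e3 := h.step_le ρ hψ hb hg p2 (S := ∅) (by simp) (by simp) (by simp)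
    (W := ⊤ ⊓ Ea ρ ψ (xl T (R.refl a b)) 0 ⊓ Ea ρ ψ (xl T a) 0) (fun g hg => by
      rw [mem_US, E.XS_empty, Subgroup.mem_bot, OneMemClass.coe_eq_one] at hg
      rw [hg]; exact one_mem _) (by simp) (fun c hc v hv => ?_) (fun t v hv => ?_) ⟨⟨trivial, h1⟩, h2⟩ h3
  · rw [top_inf_eq (Ea ρ ψ _ 1), hd 1 one_ne_zero] at e1
    have := Nat.card_pos (α := US T (∅ : Set ι))
    rw [← finrank_top ℂ V, e2, mul_add (Fintype.card _), e1]
    nlinarith [Nat.mul_le_mul_left (Fintype.card (Elts.fixF f)) ((Nat.le_mul_of_pos_right _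
      this).trans (le_of_add_le_right e3))]
  · have : ∀ r, T.S.τ r = r → v ∈ Ea ρ ψ (xl T r) 0 → ρ (hl T (R.refl a b) c) v ∈ Ea ρ ψ (xl T r) 0 :=
      fun r hr a => Ea_map ρ ψ (zpow_ne_zero _ hc) (h.hl_conj hg hr hc) (by rwa [zero_mul])
    exact ⟨⟨trivial, this _ hg hv.1.2⟩, this _ ha hv.2⟩
  · refine ⟨⟨trivial, h.St_Ea ρ hg (S := {b}) (by simp [p2]) (h.xl_mem hb (Set.mem_singleton _) t) 0 v hv.1.2⟩,
      (mem_Ea_zero ρ ψ).mpr fun s => ?_⟩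
    obtain ⟨z, -, e⟩ := h.exists_xl hg (g := xl T a s * xl T b t * (xl T a s)⁻¹ * (xl T b t)⁻¹)
      (by simp only [Subgroup.coe_mul, Subgroup.coe_inv, h.coe_xl ha, h.coe_xl hb]
          rw [comm_eq h.laced T.hF hp, mul_inv_cancel_right])
    rw [mul_inv_eq_iff_eq_mul, mul_inv_eq_iff_eq_mul, ← h.comm_xl hg (S := {b}) (by simp [p2])
      (h.xl_mem hb (Set.mem_singleton _) t)] at e
    rw [← mul_app, e, mul_app, mul_app, (mem_Ea_zero ρ ψ).mp hv.2, (mem_Ea_zero ρ ψ).mp hv.1.2]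

theorem vec3 {i : l} (hi : T.ρ i = i) {δ : ι} (hδ : T.S.τ δ = δ) (h0 : R.Pos δ)
    (hp : R.pair (R.sim i) δ = -1) (hA : ∀ s ∈ AA R i, 0 ≤ R.pair δ s)
    (hn : ∀ r, R.Pos r → R.pair (R.sim i) r = 0 → Tor T f i r)
    (hu : ∀ a : Elts.fixF f, a ≠ 0 → ∃ u ∈ US T {s | 0 ≤ R.pair δ s ∧ 0 ≤ R.pair (R.s i δ) s}, ∀ c,
      ∃ p ∈ US T (PP R i ∩ {s | R.Pos s ∧ 0 ≤ R.pair (R.sim i) s}),
        u * xl T (R.sim i) c * u⁻¹ = xl T (R.sim i) c * p * xl T δ (-(c / a)))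
    (hm : finrank ℂ ↥(Ea ρ ψ (xl T (R.sim i)) 1 ⊓ Fx ρ (US T (AA R i))) = 1) :
    ∃ y ∈ Ea ρ ψ (xl T (R.s i δ)) 0, y ∈ Ea ρ ψ (xl T δ) 0 ∧ y ∉ Ea ρ ψ (xl T (R.sim i)) 0 ∨
      y ∈ Ea ρ ψ (xl T (R.sim i)) 0 ∧ y ∉ Ea ρ ψ (xl T δ) 0 := by
  have hb := long_sim hi
  have hg : T.S.τ (R.s i δ) = R.s i δ := long_refl hb hδ
  have g1 : R.s i δ ∈ AA R i := ⟨(R.pos_s_iff h0).mpr (ne_of_pair (R := R) (by omega)), by
    rw [RS.s, pair_refl, R.pair_self, hp]; rfl⟩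
  have g2 : ∀ v ∈ Ea ρ ψ (xl T (R.sim i)) 1 ⊓ Fx ρ (US T (AA R i)), v ∈ Ea ρ ψ (xl T (R.s i δ)) 0 :=
    fun v hv => (mem_Ea_zero ρ ψ).mpr fun t => (mem_Fx ρ).mp hv.2 _ (h.xl_mem hg g1 t)
  have ne : ∀ {r}, T.S.τ r = r → ∀ {a : Elts.fixF f}, a ≠ 0 → ∀ {v}, v ∈ Ea ρ ψ (xl T r) a → v ≠ 0 →
      v ∉ Ea ρ ψ (xl T r) 0 := fun hr a ha v h1 h2 h3 => h2 (by
    rw [← ea_of_mem ρ ψ (h.xl_add hr) h1]; exact ea_of_ne ρ (h.xl_add hr) hψ ha h3)
  obtain ⟨v, hv⟩ := finrank_pos_iff_exists_ne_zero.mp (hm ▸ one_pos)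
  by_cases e : v.1 ∈ Ea ρ ψ (xl T δ) 0
  · exact ⟨v, g2 _ v.2, Or.inl ⟨e, ne hb one_ne_zero v.2.1 (by simpa using hv)⟩⟩
  obtain ⟨a, ha, a1⟩ := exists_ea_ne ρ (h.xl_add hδ) hψ e
  have a2 := ea_mem_Ea ρ ψ (h.xl_add hδ) a v.1
  have a3 : ea ρ ψ (xl T δ) a v.1 ∈ Ea ρ ψ (xl T (R.sim i)) 1 ⊓ Fx ρ (US T (AA R i)) :=
    ea_mem ρ ψ fun t => h.St_LL ρ hi (S' := {δ}) inf_le_right subset_rfl (by
      rintro _ rfl s hs
      exact ⟨R.ne_neg_of_pos h0 hs.1, by simp [cone_empty h.laced (hA s hs)]⟩) (by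
      rintro _ rfl
      refine ⟨R.ne_neg_of_pos h0 (R.pos_sim i), fun k hk => ?_⟩
      rw [(R.cone_laced h.laced (R.ne_neg_of_pos h0 (R.pos_sim i)) hk).2, refl_swap h.laced hp]
      exact g1) (h.xl_mem hδ (Set.mem_singleton _) t) _ v.2
  generalize ea ρ ψ (xl T δ) a v.1 = y at a1 a2 a3
  obtain ⟨u, u1, u2⟩ := hu a ha
  refine ⟨ρ u⁻¹ y, h.St_Ea ρ hg (fun s hs => hs.2) (inv_mem u1) 0 y (g2 y a3), Or.inr
    ⟨(mem_Ea_zero ρ ψ).mpr fun c => ?_, ne hδ ha (h.St_Ea ρ hδ (fun s hs => hs.1) (inv_mem u1) a y a2)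
      (by rwa [Ne, app_eq_zero])⟩⟩
  obtain ⟨p, p1, p2⟩ := u2 c
  rw [conj_app', inv_inv, p2, mul_app, mul_app, (mem_Ea ρ ψ).mp a2, map_smul, map_smul,
    (mem_Fx ρ).mp (h.line0 ρ hi hn hm.le a3) p p1, (mem_Ea ρ ψ).mp a3.1, smul_smul,
    ← AddChar.map_add_eq_mul, show a * -(c / a) + 1 * c = 0 by field_simp; ring,
    AddChar.map_zero_eq_one, one_smul]

end TS

lemma d4_conj' {K : Type*} [Field K] {G : Type*} [Group G] (X : StRel chevD4 K G) (t t2 t3 c : K) :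
    X.x 18 t * (X.x 13 t2 * X.x 12 t3) * X.x 14 c * (X.x 18 t * (X.x 13 t2 * X.x 12 t3))⁻¹ =
      X.x 14 c * (X.x 19 (-(c * t)) * (X.x 16 (c * t2) * (X.x 15 (c * t3) * (X.x 17 (c * t3 * t2) *
      (X.x 20 (-(c * t3 * t)) * (X.x 21 (-(c * t2 * t)) * X.x 23 (-(c * c * t * t2 * t3)))))))) *
      X.x 22 (-(c * (t * t2 * t3))) := by
  rw [mul_inv_eq_iff_eq_mul, ← mul_one (X.x 14 c)]
  simp only [mul_assoc]
  rw [X.move 12 14 15 (-1) (by decide +kernel) (by decide +kernel),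
    X.move 13 14 16 (-1) (by decide +kernel) (by decide +kernel),
    X.move 13 15 17 (-1) (by decide +kernel) (by decide +kernel),
    X.move 18 14 19 1 (by decide +kernel) (by decide +kernel),
    X.move 18 16 21 1 (by decide +kernel) (by decide +kernel),
    X.move 18 15 20 1 (by decide +kernel) (by decide +kernel),
    X.move 18 17 22 1 (by decide +kernel) (by decide +kernel),
    X.move 21 15 23 (-1) (by decide +kernel) (by decide +kernel),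
    X.swap 23 21 (by decide +kernel), X.swap 23 20 (by decide +kernel),
    X.swap 23 17 (by decide +kernel),
    X.swap 21 20 (by decide +kernel), X.swap 21 17 (by decide +kernel),
    X.swap 20 17 (by decide +kernel)]
  simp only [Int.cast_neg, Int.cast_one, mul_one, one_mul]
  ring_nf

lemma exists_norm {K : Type*} [Field K] [Fintype K] {q : ℕ} (hq : 2 ≤ q) (hK : Fintype.card K = q ^ 3)
    {z : K} (h0 : z ≠ 0) (hz : z ^ q = z) : ∃ t : K, t * t ^ q * t ^ q ^ 2 = z := by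
  classical
  have e : q ^ 3 - 1 = (1 + q + q ^ 2) * (q - 1) := by
    zify [show 1 ≤ q by omega, Nat.one_le_pow 3 q (by omega)]; ring
  have h1 : (powMonoidHom (1 + q + q ^ 2) : Kˣ →* Kˣ).range = (powMonoidHom (q - 1) : Kˣ →* Kˣ).ker := by
    refine Subgroup.eq_of_le_of_card_ge ?_ ?_
    · rintro _ ⟨u, rfl⟩
      change (u ^ _) ^ _ = 1
      rw [← pow_mul, ← e, ← hK, ← Fintype.card_units, pow_card_eq_one]
    · rw [IsCyclic.card_powMonoidHom_ker, IsCyclic.card_powMonoidHom_range, Nat.card_units,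
        Nat.card_eq_fintype_card, hK, e, Nat.gcd_mul_left_left, Nat.gcd_mul_right_left,
        Nat.mul_div_cancel_left _ (by positivity)]
  obtain ⟨u, hu⟩ : Units.mk0 z h0 ∈ (powMonoidHom (1 + q + q ^ 2) : Kˣ →* Kˣ).range := by
    rw [h1]
    exact Units.ext (mul_right_cancel₀ h0 (by
      simpa [← pow_succ, Nat.sub_add_cancel (show 1 ≤ q by omega)] using hz))
  exact ⟨u, by simpa [pow_add] using congrArg Units.val hu⟩

theorem twD4 {K : Type*} [Field K] [Fintype K] {q : ℕ} (hq : IsPrimePow q)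
    (hK : Fintype.card K = q ^ 3) {k : ℕ} (ρ : Representation ℂ (twistedD4 K q) (Fin k → ℂ))
    (hρ : ρ.IsIrreducible) (hk : 2 ≤ k) : 2 * (q ^ 2 - 1) * q ^ 5 ≤ q ^ 2 * k ∨
    (k ∣ ([1, 4, 5].map fun k => q ^ (5 - k) + q ^ (4 + k)).sum * (q - 1) * q ^ 5 ∧
      (q - 1) * (q * q ^ 4 + q ^ 4 + q) ≤ q * k) := by
  classical
  obtain ⟨R, E, hE, T, h, hA⟩ := exists_D4 hq hK
  have : Nonempty (Fin chevD4.rank) := ⟨(0 : Fin 4)⟩
  set p : ℕ → ℕ := ([2, 1, 3, 0].getD · 0) with p0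
  have hp : ∀ j, (T.ρ j : ℕ) = p j := by rw [h.hρ, p0]; decide
  obtain ⟨f, hf, hT, ht⟩ : ∃ f : K →+* K, (∀ t, f t = t ^ q) ∧ TS T f 3 ∧
      ∀ r, T.S.τ r ≠ r → Tor T f (nD4 1) r := ⟨_, h.hφ _, tsD4 h
    (laced_of_chk (R := R) (i := nD4 1) (d := [1, 0, 1, 1]) (by decide +kernel))⟩
  have hs := (simple_tw hA h.good (R.connected (by simp)) h.perfect).1
  have lg := @TS.long_lngB _ R _ _ _ _ _ T f 3 p hT hp
  have hθ := hT.hi_of_chk hp (by decide) (by rw [p0]; decide +kernel)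
  obtain ⟨σ, a1, a2⟩ := hT.bridge (H62.LB.Mod.ofModel (twModel hA))
    (perfect_tw hA h.perfect) (fun N hN => (hs.eq_bot_or_eq_top_of_normal N hN).imp_left fun a =>
      a.le.trans bot_le) ρ hρ (by simpa using hk) hθ.long
  have := Fintype.ofFinite (Elts.fixF f)
  have hq' := card_fixF hf h.two_le hK
  have hψ := AddChar.FiniteField.primitiveChar_to_Complex_isPrimitive (Elts.fixF f)
  have hc := hT.hc_of (q := q) h.card_PJ
  have a5 : NN R.toRS (fun _ => q) ⟨chevD4.nroots - 1, by decide⟩ = q ^ (4 + 1) := by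
    have : R.ht ⟨chevD4.nroots - 1, by decide⟩ = 5 := (hT.ht_htN _).trans (by decide +kernel)
    rw [NN_const q ((R.ht_pos_iff _).mp (by omega)), this]; rfl
  have h1 : T.ρ (nD4 1) = nD4 1 := by rw [h.hρ]; rfl
  have := hT.main σ hψ hc hθ (hT.nb_of_chk hp (by rw [p0]; decide +kernel)) a2 h1
  rw [hT.sum_An hc hθ (e := fun r => (R.ht r).toNat) (H := 4)
    (by rw [a5, Nat.card_eq_fintype_card, hq'])
    (fun r _ a => by rw [NN_const q a, Nat.card_eq_fintype_card, hq']), a5, Nat.card_eq_fintype_card,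
    hq', hT.sum_hts hp fun k => q ^ (4 + 1 - k) + q ^ (4 + k),
    show hts chevD4 p = [1, 4, 5] by rw [p0]; decide +kernel, finrank_fin_fun] at this
  refine this.imp_right fun ⟨b1, b2⟩ => ⟨b1, ?_⟩
  have v1 : ((R.sim (nD4 1) : Fin chevD4.nroots) : ℕ) = 14 := R.sim_eq _
  obtain ⟨δ, hδ⟩ : ∃ δ : Fin chevD4.nroots, (δ : ℕ) = 22 := ⟨⟨22, by decide⟩, rfl⟩
  have v2 : (R.s (nD4 1) δ : ℕ) = 23 := by rw [R.s_val, hδ]; decide +kernel
  have d1 : T.S.τ δ = δ := lg.mpr (by rw [hδ, p0]; decide +kernel)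
  have d2 : R.pair (R.sim (nD4 1)) δ = -1 := by rw [← R.pairing_eq, v1, hδ]; decide +kernel
  have hX : ∀ r t, hE.grp.x r t = hE.grpRel.x r t := fun r t => (hE.grpRel_x r t).symm
  have mx : ∀ {S : Set (Fin chevD4.nroots)} (r : ℕ) (hr : r < 24), ⟨r, hr⟩ ∈ S → ∀ t,
      hE.grpRel.x r t ∈ hE.grp.XS S := fun r hr a t => hX ⟨r, hr⟩ t ▸ hE.grp.x_mem_XS a t
  have hd : ∀ r, T.S.τ r = r → ∀ a ≠ 0, finrank ℂ (Ea σ
      (AddChar.FiniteField.primitiveChar_to_Complex (Elts.fixF f)) (xl T r) a) = q ^ 4 :=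
    fun r hr a ha => Nat.eq_of_mul_eq_mul_left (show 0 < q by have := h.two_le; omega) (by
      rw [← pow_succ', ← a5, ← hT.dim_long σ hψ hc hθ h1 (b2 _ h1) hr ha, hq'])
  refine (hT.vec3 σ hψ h1 d1
    ((R.isPosRoot_iff δ).mp (by rw [hδ]; decide +kernel)) d2 (fun s hs => by
      have := hs.2
      have := (R.isPosRoot_iff s).mpr hs.1
      rw [← R.pairing_eq] at *
      rw [v1] at *
      rw [hδ]
      clear hs
      revert s; decide +kernel) (fun r a b => ht r fun e => by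
      rw [lg, p0] at e
      rw [← R.isPosRoot_iff] at a
      rw [← R.pairing_eq, v1] at b
      revert r; decide +kernel) (fun a ha => ?_) (b2 _ h1 1 one_ne_zero)).elim fun y ⟨y1, y2⟩ => ?_
  swap
  · rw [← hq', ← finrank_fin_fun ℂ (n := k)]
    rcases y2 with y2 | y2
    · have e := refl_swap hT.laced d2
      exact hq'.symm ▸ hT.bound3 σ hψ d1 (long_sim h1)
        ((pair_comm hT.laced _ _).trans d2) (hd _ (long_refl d1 (long_sim h1))) (e ▸ y1) y2.1 y2.2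
    · exact hq'.symm ▸ hT.bound3 σ hψ (long_sim h1) d1 d2
        (hd _ (long_refl (long_sim h1) d1)) y1 y2.1 y2.2
  obtain ⟨t, ht⟩ := exists_norm h.two_le hK (z := (a⁻¹ : Elts.fixF f)) (by simpa using ha)
    ((hf _).symm.trans (a⁻¹).2)
  have v0 : ∀ i, (R.sim (nD4 i) : ℕ) = [18, 14, 13, 12].getD i 0 := fun i => by
    rw [R.sim_eq]; revert i; decide
  have u1 := (h.mem023 (Or.inl rfl) (Or.inl rfl)).mpr ⟨t, rfl⟩
  rw [← (h.orth 0).PJ_eq] at u1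
  obtain ⟨u, hu⟩ : ∃ u : T.G1, (u : chevD4.group K) =
      hE.grpRel.x 18 t * (hE.grpRel.x 13 (t ^ q) * hE.grpRel.x 12 (t ^ q ^ 2)) :=
    ⟨⟨_, T.PJ_le_G1 _ u1⟩, congrArg₂ (· * ·) (grp_x_eq hE (v0 0) _)
      (congrArg₂ (· * ·) (grp_x_eq hE (v0 2) _) (grp_x_eq hE (v0 3) _))⟩
  refine ⟨u, ?_, fun c => ⟨(xl T (R.sim (nD4 1)) c)⁻¹ * (u * xl T (R.sim (nD4 1)) c * u⁻¹) *
    (xl T δ (-(c / a)))⁻¹, ?_, by group⟩⟩
  · rw [mem_US, hu]
    refine mul_mem (mx _ (by decide) ?_ _) (mul_mem (mx _ (by decide) ?_ _) (mx _ (by decide) ?_ _))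
    all_goals
      simp only [Set.mem_ofPred_eq, ← R.pairing_eq, v2, hδ]; decide +kernel
  · simp only [mem_US, Subgroup.coe_mul, Subgroup.coe_inv, hT.coe_xl d1,
      hT.coe_xl (long_sim h1), hX, v1, hδ, hu]
    rw [d4_conj', ht, mul_assoc (hE.grpRel.x 14 _), inv_mul_cancel_left,
      show ((-(c / a) : Elts.fixF f) : K) = -(c * (a⁻¹ : Elts.fixF f)) by simp [div_eq_mul_inv],
      mul_inv_cancel_right]
    iterate 6 refine mul_mem (mx _ (by decide) ?_ _) ?_; rotate_left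
    refine mx _ (by decide) ?_ _
    all_goals
      simp only [PP, Set.mem_inter_iff, Set.mem_ofPred_eq, ← R.pairing_eq, ← R.isPosRoot_iff, Ne,
        Fin.ext_iff, v1]
      decide +kernel

end H38.MD
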